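import Cfsg.Agent.H849.RIM.CentCount
import Cfsg.Agent.H620.RIM.Nb

/-!
# S4816: counting tools with an abstract number of characters (helper916, after helper849)

* `card_ge` : lower bound for the number of characters over `c` by a list of good elements;
* `exists_dz_quot_c`, `exists_dvd_quot_c` : the tools of helper849 with the number of characters over `c` as hypothesis;
* `nb_dz`, `nb_col` : `NB p m S` from lists of good elements in every cover.
-/

set_option autoImplicit false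
set_option linter.unusedSectionVars false

namespace Cfsg.Agent.H916.RIM

open Cfsg Subgroup Finset
open Cfsg.Agent.Characters.Core
open Cfsg.Agent.SmallSimple.ThetaSetup Cfsg.Agent.SmallSimple.ThetaOrtho Cfsg.Agent.SmallSimple.ThetaCount
open Cfsg.Agent.SmallSimple.TheoremC Cfsg.Agent.SmallSimple.TheoremCCor
open Cfsg.Agent.SmallSimple.SingularCount
open Cfsg.Agent.H622.Over Cfsg.Agent.H849.RIM Cfsg.Agent.H665.RIM
open scoped ComplexConjugate commutatorElement

universe u

section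

variable {G : Type u} [Group G] [Finite G] {p : ℕ} [Fact p.Prime] {P : Sylow p G} {K : Subgroup G}

theorem exists_dz_c (hK : IsComp p (P : Subgroup G) K) (hP : Nat.card P = p) {Z : Subgroup G} [Z.Normal]
    (hZ : Z ≤ center G) (hZK : Z ≤ K) (c : Z →* ℂˣ) {w : ℕ}
    (hw : (centralizer ((P : Subgroup G) : Set G)).relIndex (normalizer ((P : Subgroup G) : Set G)) = w)
    (A : Finset (IrrCharacter K)) (hA : ∀ θ : IrrCharacter K, LiesK Z c K (θ : K → ℂ) → θ ∈ A)
    {n : ℕ} (hn : n ≤ Nat.card {χ : IrrCharacter G // Lies Z c (χ : G → ℂ)})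
    (hlt : ∑ θ ∈ A, (Nat.card (stabAct hK (θ : K → ℂ)) ^ 2 + (p - 1)) < w * n) :
    ∃ χ : IrrCharacter G, Lies Z c (χ : G → ℂ) ∧ ∀ g : G, p ∣ orderOf g → (χ : G → ℂ) g = 0 := by
  classical
  by_contra hcon
  push Not at hcon
  have := finite_irr (G := G)
  have := Fintype.ofFinite (IrrCharacter G)
  have h1 := card_mul_le hK hP hZ hZK hw A hA (Finset.univ.filter fun χ : IrrCharacter G => Lies Z c (χ : G → ℂ))
    (fun χ hχ => ⟨(mem_filter.1 hχ).2, by
      obtain ⟨g, hg, hne⟩ := hcon χ (mem_filter.1 hχ).2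
      exact ⟨g, hg, hne⟩⟩)
  rw [Nat.card_eq_fintype_card, Fintype.card_subtype] at hn
  have h3 := Nat.mul_le_mul_left w hn
  omega

end

section quot

variable {G : Type u} [Group G] [Finite G] {p : ℕ} [Fact p.Prime]

theorem exists_dz_quot_c {Z : Subgroup G} [Z.Normal] (hZ : Z ≤ center G) (hZp : ¬ p ∣ Nat.card Z)
    (hsq : ¬ p ^ 2 ∣ Nat.card (G ⧸ Z)) {y : G ⧸ Z} (hy : orderOf y = p) {k w : ℕ}
    (hC : Nat.card (centralizer ({y} : Set (G ⧸ Z))) = p * k)
    (hN : Nat.card (normalizer ((zpowers y : Subgroup (G ⧸ Z)) : Set (G ⧸ Z))) = w * (p * k)) (c : Z →* ℂˣ)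
    {n : ℕ} (hn : n ≤ Nat.card {χ : IrrCharacter G // Lies Z c (χ : G → ℂ)})
    (hlt : k * (w ^ 2 + (p - 1)) < w * n) :
    ∃ χ : IrrCharacter G, Lies Z c (χ : G → ℂ) ∧ p ∣ charDegree (χ : G → ℂ) := by
  classical
  have hp : p.Prime := Fact.out
  have hfin : Finite (IrrCharacter G) := finite_irr
  obtain ⟨u, rfl, hu⟩ := exists_lift hZp hy
  -- the Sylow subgroup
  have hcG := card_eq_card_quotient_mul_card_subgroup Z
  have hG2 : ¬ p ^ 2 ∣ Nat.card G := by
    rw [hcG]
    intro h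
    have hco : (p ^ 2).Coprime (Nat.card Z) := Nat.Coprime.pow_left 2 ((hp.coprime_iff_not_dvd).2 hZp)
    exact hsq (hco.dvd_of_dvd_mul_right h)
  have hzp : IsPGroup p (zpowers u) := IsPGroup.of_card (n := 1) (by rw [Nat.card_zpowers, hu, pow_one])
  obtain ⟨P, hPle⟩ := hzp.exists_le_sylow
  have hP : Nat.card P = p := by
    obtain ⟨n, hn⟩ := (IsPGroup.iff_card).1 P.2
    have h1 : Nat.card P ∣ Nat.card G := card_subgroup_dvd_card _
    have h2 : n < 2 := by
      by_contra h3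
      push Not at h3
      exact hG2 ((pow_dvd_pow p h3).trans (hn ▸ h1))
    have h3 : p ∣ Nat.card P := by
      have := card_dvd_of_le hPle
      rwa [Nat.card_zpowers, hu] at this
    interval_cases n
    · rw [hn, pow_zero, Nat.dvd_one] at h3
      exact absurd h3 hp.one_lt.ne'
    · rw [hn, pow_one]
  have hPz : (P : Subgroup G) = zpowers u := by
    symm
    refine eq_of_le_of_card_ge hPle ?_
    rw [Nat.card_zpowers, hu]
    exact hP.le
  obtain ⟨K, hK⟩ := exists_isComp P hP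
  have huP : u ∈ (P : Subgroup G) := hPle (mem_zpowers u)
  have hu1 : u ≠ 1 := by
    rintro rfl
    rw [orderOf_one] at hu
    exact hp.one_lt.ne hu
  have hCP : centralizer ((P : Subgroup G) : Set G) = centralizer ({u} : Set G) :=
    (Blocks.CyclicOrtho.centralizer_eq P hP huP hu1).symm
  -- the centralizer
  have hcent : centralizer ((P : Subgroup G) : Set G) =
      (centralizer ({(u : G ⧸ Z)} : Set (G ⧸ Z))).comap (QuotientGroup.mk' Z) := by
    rw [hCP]
    ext x
    rw [mem_centralizer_singleton_iff, mem_comap, mem_centralizer_singleton_iff]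
    constructor
    · intro h
      have := congrArg (QuotientGroup.mk' Z) h
      simpa using this
    · intro h
      have h1 : (x : G ⧸ Z) * u * (x : G ⧸ Z)⁻¹ = (u : G ⧸ Z) ^ 1 := by
        have h2 : (x : G ⧸ Z) * u = u * x := h
        rw [h2, mul_inv_cancel_right, pow_one]
      have h2 := comm_of_comm hZ hZp hu h1
      rw [pow_one, mul_inv_eq_iff_eq_mul] at h2
      exact h2
  have hnorm : normalizer ((P : Subgroup G) : Set G) =
      (normalizer ((zpowers (u : G ⧸ Z) : Subgroup (G ⧸ Z)) : Set (G ⧸ Z))).comap (QuotientGroup.mk' Z) := by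
    have hPm : (P : Subgroup G).map (QuotientGroup.mk' Z) = zpowers (u : G ⧸ Z) := by
      rw [hPz, MonoidHom.map_zpowers]
      rfl
    apply le_antisymm
    · intro x hx
      rw [mem_comap, ← hPm]
      exact Subgroup.le_normalizer_map _ (mem_map_of_mem _ hx)
    · intro x hx
      rw [mem_comap] at hx
      have h1 : (x : G ⧸ Z) * u * (x : G ⧸ Z)⁻¹ ∈ zpowers (u : G ⧸ Z) :=
        (mem_normalizer_iff.1 hx (u : G ⧸ Z)).1 (mem_zpowers _)
      obtain ⟨j, hj⟩ := mem_powers_iff_mem_zpowers.2 h1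
      have h2 := comm_of_comm hZ hZp hu (x := x) (j := j) hj.symm
      refine mem_normalizer_fintype fun n hn => ?_
      have hn' : n ∈ zpowers u := by rw [← hPz]; exact hn
      obtain ⟨i, rfl⟩ := mem_powers_iff_mem_zpowers.2 hn'
      show x * u ^ i * x⁻¹ ∈ (P : Subgroup G)
      rw [← conj_pow, h2, hPz]
      exact pow_mem (pow_mem (mem_zpowers u) j) i
  have hcC : Nat.card (centralizer ((P : Subgroup G) : Set G)) = p * k * Nat.card Z := by
    rw [hcent, card_comap, hC]
  have hcN : Nat.card (normalizer ((P : Subgroup G) : Set G)) = w * (p * k) * Nat.card Z := by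
    rw [hnorm, card_comap, hN]
  have hcK : Nat.card K = k * Nat.card Z := by
    have h1 : Nat.card P * Nat.card K = Nat.card (centralizer ((P : Subgroup G) : Set G)) := by
      rw [← Nat.card_prod]
      exact Nat.card_congr (prodEquiv hK hP).toEquiv
    rw [hP, hcC, mul_assoc] at h1
    exact Nat.eq_of_mul_eq_mul_left hp.pos h1
  have hZK : Z ≤ K := by
    intro z hz
    rw [hK]
    refine ⟨?_, fun h => hZp ?_⟩
    · rw [mem_centralizer_iff]
      intro g _
      exact mem_center_iff.1 (hZ hz) g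
    · have h1 := _root_.orderOf_dvd_natCard (⟨z, hz⟩ : Z)
      rw [← orderOf_submonoid] at h1
      exact h.trans h1
  have hk0 : 0 < k := by
    rcases Nat.eq_zero_or_pos k with h | h
    · rw [h, zero_mul] at hcK
      exact absurd hcK Nat.card_pos.ne'
    · exact h
  have hw : (centralizer ((P : Subgroup G) : Set G)).relIndex (normalizer ((P : Subgroup G) : Set G)) = w := by
    have h1 : centralizer ((P : Subgroup G) : Set G) ≤ normalizer ((P : Subgroup G) : Set G) :=
      centralizer_le_normalizer _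
    have h2 := Subgroup.card_mul_index ((centralizer ((P : Subgroup G) : Set G)).subgroupOf
      (normalizer ((P : Subgroup G) : Set G)))
    rw [Nat.card_congr (subgroupOfEquivOfLe h1).toEquiv, hcC, hcN] at h2
    have h3 : 0 < p * k * Nat.card Z := Nat.mul_pos (Nat.mul_pos hp.pos hk0) Nat.card_pos
    rw [Subgroup.relIndex]
    apply Nat.eq_of_mul_eq_mul_left h3
    rw [h2]
    ring
  have hfK : Finite (IrrCharacter K) := finite_irr
  have := Fintype.ofFinite (IrrCharacter K)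
  set A : Finset (IrrCharacter K) := univ.filter fun θ => LiesK Z c K (θ : K → ℂ) with hA
  have hAk : A.card ≤ k := card_liesK_le hZ hZK c hcK A fun θ hθ => (mem_filter.1 hθ).2
  have hsum : ∑ θ ∈ A, (Nat.card (stabAct hK (θ : K → ℂ)) ^ 2 + (p - 1)) ≤ k * (w ^ 2 + (p - 1)) := by
    have hw0 : 0 < w := by
      rcases Nat.eq_zero_or_pos w with h | h
      · rw [h, zero_mul, zero_mul] at hcN
        exact absurd hcN Nat.card_pos.ne'
      · exact h
    calc ∑ θ ∈ A, (Nat.card (stabAct hK (θ : K → ℂ)) ^ 2 + (p - 1)) ≤ ∑ _θ ∈ A, (w ^ 2 + (p - 1)) := by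
          refine Finset.sum_le_sum fun θ _ => Nat.add_le_add_right (Nat.pow_le_pow_left ?_ 2) _
          have h1 := card_stabAct_mul_card_orb hK hP θ.2
          rw [hw] at h1
          exact Nat.le_of_dvd hw0 (h1 ▸ dvd_mul_right _ _)
      _ = A.card * (w ^ 2 + (p - 1)) := by rw [Finset.sum_const, smul_eq_mul]
      _ ≤ k * (w ^ 2 + (p - 1)) := Nat.mul_le_mul_right _ hAk
  obtain ⟨χ, hl, h0⟩ := exists_dz_c hK hP hZ hZK c hw A (fun θ hθ => mem_filter.2 ⟨mem_univ _, hθ⟩) hn
    (lt_of_le_of_lt hsum hlt)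
  refine ⟨χ, hl, ?_⟩
  obtain ⟨d, hd⟩ := exists_degree_eq (P : Subgroup G) (isIrr_isCharacter χ.2) fun x hx hx1 => h0 x (by
    rw [Blocks.CyclicOrtho.orderOf_eq P hP hx hx1])
  rw [hP] at hd
  refine ⟨d, ?_⟩
  have h1 : ((charDegree (χ : G → ℂ) : ℕ) : ℂ) = ((p * d : ℕ) : ℂ) := by
    obtain ⟨n, hn⟩ := isCharacter_apply_one (isIrr_isCharacter χ.2)
    unfold charDegree
    rw [hn, Complex.natCast_re, Nat.floor_natCast, ← hn, hd]
    push_cast
    ring
  exact_mod_cast h1

theorem exists_dvd_quot_c {p : ℕ} [Fact p.Prime] {Z : Subgroup G} [Z.Normal] (hZ : Z ≤ center G) (hZp : ¬ p ∣ Nat.card Z)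
    {y : G ⧸ Z} {n : ℕ} (hy : orderOf y = p ^ n) (c : Z →* ℂˣ)
    {N : ℕ} (hN : N ≤ Nat.card {χ : IrrCharacter G // Lies Z c (χ : G → ℂ)})
    (hlt : Nat.card (centralizer ({y} : Set (G ⧸ Z))) < N) :
    ∃ χ : IrrCharacter G, Lies Z c (χ : G → ℂ) ∧ p ∣ charDegree (χ : G → ℂ) := by
  classical
  have hp : p.Prime := Fact.out
  have hco : (p ^ n).Coprime (Nat.card Z) := Nat.Coprime.pow_left n ((hp.coprime_iff_not_dvd).2 hZp)
  -- the lift
  obtain ⟨u, rfl, hu⟩ : ∃ u : G, (u : G ⧸ Z) = y ∧ u ^ (p ^ n) = 1 := by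
    obtain ⟨g, rfl⟩ := QuotientGroup.mk_surjective y
    obtain ⟨a, ha⟩ := (Nat.modEq_and_modEq_iff_modEq_mul hco).2 rfl |> fun _ : (0 : ℕ) ≡ 0 [MOD p ^ n] ∧ _ =>
      (⟨Nat.chineseRemainder hco 1 0, (Nat.chineseRemainder hco 1 0).2⟩ : ∃ a, a ≡ 1 [MOD p ^ n] ∧ a ≡ 0 [MOD Nat.card Z])
    refine ⟨g ^ a, ?_, ?_⟩
    · rw [QuotientGroup.mk_pow]
      have h1 : (g : G ⧸ Z) ^ a = (g : G ⧸ Z) ^ 1 := pow_eq_pow_iff_modEq.2 (by rw [hy]; exact ha.1)
      rw [h1, pow_one]
    · have h1 : g ^ (p ^ n) ∈ Z := by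
        rw [← QuotientGroup.eq_one_iff, QuotientGroup.mk_pow, ← hy]
        exact pow_orderOf_eq_one _
      have h2 : (g ^ (p ^ n)) ^ Nat.card Z = 1 := by
        have h3 := pow_card_eq_one' (G := Z) (x := ⟨g ^ (p ^ n), h1⟩)
        exact congrArg Subtype.val h3
      obtain ⟨b, hb⟩ := (Nat.modEq_zero_iff_dvd).1 ha.2
      calc (g ^ a) ^ (p ^ n) = ((g ^ (p ^ n)) ^ Nat.card Z) ^ b := by
            rw [hb, ← pow_mul, ← pow_mul, ← pow_mul]; ring_nf
        _ = 1 := by rw [h2, one_pow]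
  have hou : orderOf u ∣ p ^ n := orderOf_dvd_of_pow_eq_one hu
  have hw : (orderOf u).Coprime (Nat.card Z) := hco.coprime_dvd_left hou
  -- the centralizer
  have hcent : centralizer ({u} : Set G) =
      (centralizer ({(u : G ⧸ Z)} : Set (G ⧸ Z))).comap (QuotientGroup.mk' Z) := by
    ext x
    rw [mem_centralizer_singleton_iff, mem_comap, mem_centralizer_singleton_iff]
    constructor
    · intro h
      have := congrArg (QuotientGroup.mk' Z) h
      simpa using this
    · intro h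
      have h2 : (x : G ⧸ Z) * u = u * x := h
      have h3 : u⁻¹ * (x * u * x⁻¹) ∈ Z := by
        rw [← QuotientGroup.eq_one_iff, QuotientGroup.mk_mul, QuotientGroup.mk_inv, QuotientGroup.mk_mul,
          QuotientGroup.mk_mul, QuotientGroup.mk_inv, h2, mul_inv_cancel_right, inv_mul_cancel]
      have h4 : IsConj u (u * ((⟨_, h3⟩ : Z) : G)) := by
        rw [isConj_iff]
        exact ⟨x, by simp⟩
      have h5 := congrArg Subtype.val (eq_one_of_conj hZ hw _ h4)
      have h6 : u⁻¹ * (x * u * x⁻¹) = 1 := h5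
      rw [inv_mul_eq_one] at h6
      rw [eq_comm, mul_inv_eq_iff_eq_mul] at h6
      exact h6
  obtain ⟨χ, hl, h0⟩ := exists_zero_over hZ c hw (by
    rw [hcent, card_comap, mul_comm]
    refine Nat.mul_lt_mul_of_pos_left (lt_of_lt_of_le hlt (hN)) Nat.card_pos)
  refine ⟨χ, hl, ?_⟩
  obtain ⟨M, hM⟩ := Blocks.ExistsModular.exists_isPModular hp
  have hMp : M.IsPrime := hM.2.1.isPrime
  have h1 := H849.OZ.av_sub_mem (χ := χ) hp hMp hM.2.2 u (j := 0) (n := n) (by rw [pow_zero, one_pow, hu])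
  have h3 : H732.VZ.av χ u = 0 := Subtype.ext h0
  rw [h3, pow_zero, zero_sub, Ideal.neg_mem_iff] at h1
  have h4 : H732.VZ.av χ 1 = ((charDegree (χ : G → ℂ) : ℤ) : AlgInt) := by
    apply Subtype.ext
    rw [H732.VZ.av_coe, ← H686.CharKit.charDegree_irr χ]
    simp
  rw [h4, H732.VZ.int_mem_iff hp hMp hM.2.2] at h1
  exact_mod_cast h1

/-- Lower bound for the number of characters over `c`: good elements. -/
theorem card_ge {Z : Subgroup G} [Z.Normal] (hZ : Z ≤ center G) (c : Z →* ℂˣ) {n : ℕ} (g : Fin n → G)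
    (hg : ∀ i y, ⁅g i, y⁆ ∈ Z → ⁅g i, y⁆ = 1)
    (hnc : ∀ i j, IsConj (g i : G ⧸ Z) (g j : G ⧸ Z) → i = j) :
    n ≤ Nat.card {χ : IrrCharacter G // Lies Z c (χ : G → ℂ)} := by
  classical
  rw [card_over hZ c, card_good hZ c]
  have hgood : ∀ i, Good Z c (g i) := by
    intro i x hx
    have h1 : x⁻¹ * (g i)⁻¹ * x * g i = (g i)⁻¹ * (x⁻¹ * (g i * x * (g i)⁻¹ * x⁻¹)⁻¹ * x) * g i := by group
    have h2 : ⁅g i, x⁆ ∈ Z := by
      have h3 : ⁅g i, x⁆ = (x * (g i * (x⁻¹ * (g i)⁻¹ * x * g i) * (g i)⁻¹) * x⁻¹)⁻¹ := by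
        rw [commutatorElement_def]; group
      rw [h3]
      refine Z.inv_mem ?_
      exact ‹Z.Normal›.conj_mem _ (‹Z.Normal›.conj_mem _ hx _) _
    have h4 := hg i x h2
    have h5 : x⁻¹ * (g i)⁻¹ * x * g i = 1 := by
      rw [h1]
      rw [commutatorElement_def] at h4
      rw [h4]
      group
    have h6 : (⟨x⁻¹ * (g i)⁻¹ * x * g i, hx⟩ : Z) = 1 := Subtype.ext h5
    rw [h6, map_one]
  let f : Fin n → {C : ConjClasses (G ⧸ Z) // ∃ g : G, ConjClasses.mk (g : G ⧸ Z) = C ∧ Good Z c g} :=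
    fun i => ⟨ConjClasses.mk (g i : G ⧸ Z), g i, rfl, hgood i⟩
  have hf : Function.Injective f := by
    intro i j h
    exact hnc i j (ConjClasses.mk_eq_mk_iff_isConj.1 (congrArg Subtype.val h))
  have : Finite (ConjClasses (G ⧸ Z)) := Finite.of_surjective _ (ConjClasses.mk_surjective (α := G ⧸ Z))
  have h1 := Nat.card_le_card_of_injective f hf
  rwa [Nat.card_fin] at h1

end quot

/-- `n` elements with good lifts and pairwise not conjugate images in `S`. -/
def GoodList {E S : Type*} [Group E] [Group S] (π : E →* S) (n : ℕ) : Prop :=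
  ∃ g : Fin n → E, (∀ i y, ⁅g i, y⁆ ∈ π.ker → ⁅g i, y⁆ = 1) ∧ ∀ i j, IsConj (π (g i)) (π (g j)) → i = j

theorem card_ge_of_list {E S : Type u} [Group E] [Finite E] [Group S] {π : E →* S}
    (hc : π.ker ≤ center E) {n : ℕ} (h : GoodList π n) (c : π.ker →* ℂˣ) :
    n ≤ Nat.card {χ : IrrCharacter E // Lies π.ker c (χ : E → ℂ)} := by
  obtain ⟨g, hg, hnc⟩ := h
  refine card_ge hc c g hg fun i j hij => hnc i j ?_
  obtain ⟨x, hx⟩ := isConj_iff.1 hij
  obtain ⟨x, rfl⟩ := QuotientGroup.mk_surjective x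
  refine isConj_iff.2 ⟨π x, ?_⟩
  rw [← map_inv, ← map_mul, ← map_mul]
  have h1 : ((x * g i * x⁻¹ : E) : E ⧸ π.ker) = (g j : E ⧸ π.ker) := hx
  rw [QuotientGroup.eq] at h1
  have h2 : π ((x * g i * x⁻¹)⁻¹ * g j) = 1 := h1
  rw [map_mul, map_inv] at h2
  exact (inv_mul_eq_one.1 h2)

/-- **Defect zero count**, `C_S(y) = ⟨y⟩` of order `p`. -/
theorem nb_dz {p m n w : ℕ} (hp : p.Prime) (hpm : ¬ p ∣ m) {S : Type u} [Group S]
    (hsq : ¬ p ^ 2 ∣ Nat.card S) {y : S} (hy : orderOf y = p)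
    (hC : Nat.card (centralizer ({y} : Set S)) = p)
    (hN : Nat.card (normalizer ((zpowers y : Subgroup S) : Set S)) = w * p)
    (hgood : ∀ (E : Type u) [Group E] [Finite E] (π : E →* S), Function.Surjective π → π.ker ≤ center E →
      commutator E = ⊤ → Nat.card π.ker = m → GoodList π n)
    (hlt : w ^ 2 + (p - 1) < w * n) : NB p m S := by
  have : Fact p.Prime := ⟨hp⟩
  intro E _ _ π hπ hker hperf hcard l _
  let e : (E ⧸ π.ker) ≃* S := QuotientGroup.quotientKerEquivOfSurjective π hπ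
  have hn := card_ge_of_list hker (hgood E π hπ hker hperf hcard) l
  obtain ⟨χ, hχ, hd⟩ := exists_dz_quot_c hker (hcard ▸ hpm) (by rwa [Nat.card_congr e.toEquiv]) (y := e.symm y)
    (k := 1) (w := w) (by rw [← hy]; exact orderOf_injective e.symm.toMonoidHom e.symm.injective y)
    (by rw [H620.RIM.card_centralizer_congr e.symm y, hC, mul_one])
    (by rw [H620.RIM.card_normalizer_congr e.symm y, hN, mul_one]) l hn (by rw [one_mul]; exact hlt)
  refine ⟨χ, χ.2, fun z => ?_, hd⟩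
  have h1 := hχ 1 z
  rwa [one_mul] at h1

/-- **Column count.** -/
theorem nb_col {p m n k : ℕ} (hp : p.Prime) (hpm : ¬ p ∣ m) {S : Type u} [Group S] {y : S} (hy : orderOf y = p ^ k)
    (hgood : ∀ (E : Type u) [Group E] [Finite E] (π : E →* S), Function.Surjective π → π.ker ≤ center E →
      commutator E = ⊤ → Nat.card π.ker = m → GoodList π n)
    (hlt : Nat.card (centralizer ({y} : Set S)) < n) : NB p m S := by
  have : Fact p.Prime := ⟨hp⟩
  intro E _ _ π hπ hker hperf hcard l _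
  let e : (E ⧸ π.ker) ≃* S := QuotientGroup.quotientKerEquivOfSurjective π hπ
  have hn := card_ge_of_list hker (hgood E π hπ hker hperf hcard) l
  obtain ⟨χ, hχ, hd⟩ := exists_dvd_quot_c hker (hcard ▸ hpm) (y := e.symm y) (n := k)
    (by rw [← hy]; exact orderOf_injective e.symm.toMonoidHom e.symm.injective y) l hn
    (by rw [H620.RIM.card_centralizer_congr e.symm y]; exact hlt)
  refine ⟨χ, χ.2, fun z => ?_, hd⟩
  have h1 := hχ 1 z
  rwa [one_mul] at h1

end Cfsg.Agent.H916.RIM
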